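import Cfsg.Agent.W3.DGa
import Cfsg.Agent.Fgs3.AbInv2
import Cfsg.Agent.Ab2.Hy

/-! Groups with an involution whose centralizer is a generalized dihedral group, II. -/

set_option autoImplicit false

namespace CF.W3.DGr

open Subgroup Cfsg CF.BG CF.Sig CF.GW CF.Ab2 CF.Classical CF.Invol
open scoped MatrixGroups

variable {G : Type*} [Group G] [Finite G] {A H S T : Subgroup G} {g j k s w x y z : G}

/-- the normalized hypothesis -/
structure DD (H A : Subgroup G) : Prop where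
  le : A ≤ H
  ab : Abel A
  out : ∀ x ∈ H, x ∉ A → x * x = 1
  idx : ∀ x ∈ H, ∀ y ∈ H, x ∉ A → y ∉ A → x * y ∈ A
  ne : ∃ s ∈ H, s ∉ A
  ev : ∃ j ∈ A, Iv j
  cen : ∀ j ∈ A, Iv j → 𝐂₁ j = H

/-- the conclusion -/
def Out (G : Type*) [Group G] : Prop := ∃ (N : Subgroup G) (_ : N.Normal), ♯N ∣ 2 ∧ LP (G ⧸ N)

theorem Out.of_LP (h : LP G) : Out G := by
  obtain ⟨F, _, _, h3, e⟩ := h
  exact ⟨⊥, inferInstance, by simp, F, _, _, h3, e.imp (fun ⟨e⟩ => ⟨QuotientGroup.quotientBot.trans e⟩)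
    fun ⟨e⟩ => ⟨QuotientGroup.quotientBot.trans e⟩⟩

theorem O_quot_cent {N : Subgroup G} [N.Normal] (p : PiGrp {2} N) (c : ⊤ ≤ 𝐂 N) (o : 𝐎 {2}ᶜ (⊤ : Subgroup G) = ⊥) :
    𝐎 {2}ᶜ (⊤ : Subgroup (G ⧸ N)) = ⊥ := by
  set K := (𝐎 {2}ᶜ (⊤ : Subgroup (G ⧸ N))).comap (QuotientGroup.mk' N)
  haveI := normalIn_top.1 (O_normal {2}ᶜ (⊤ : Subgroup (G ⧸ N)))
  have l : N ≤ K := fun x hx => by simp [K, (QuotientGroup.eq_one_iff x).2 hx]
  have d := Hall.dprod_of_cent (π := {2}) ⟨l, p, by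
    have := Solv.card_comap_of_surjective (QuotientGroup.mk'_surjective N) (𝐎 {2}ᶜ ⊤)
    rw [QuotientGroup.ker_mk', ← card_mul_relIndex l, mul_comm] at this
    rw [mul_right_cancel₀ Nat.card_pos.ne' this]; exact O_pi _ _⟩ (le_top.trans c)
  rw [← map_comap_eq_self_of_surjective (QuotientGroup.mk'_surjective N) (𝐎 {2}ᶜ ⊤), Subgroup.map_eq_bot_iff, QuotientGroup.ker_mk']
  change K ≤ N
  rw [← d.sup, eq_bot_mono o (O_le_O_of_normal (normalIn_top.2 inferInstance) _), sup_bot_eq]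

theorem sl_sq {F : Type*} [Field F] (h2 : (2 : F) = 0) (g : SL(2, F)) (n : ℕ) (h : g ^ 2 ^ n = 1) : g ^ 2 = 1 := by
  have key : ∀ g : SL(2, F), g ^ 4 = 1 → g ^ 2 = 1 := fun g e => by
    have d := g.det_coe
    have e' := congrArg Subtype.val e
    rw [Matrix.det_fin_two] at d
    rw [show 4 = 2 + 2 by rfl, pow_add, sq] at e'
    have e1 := congrFun (congrFun e' 0) 0
    have e2 := congrFun (congrFun e' 0) 1
    have e3 := congrFun (congrFun e' 1) 0
    simp [Matrix.mul_apply, Fin.sum_univ_two] at e1 e2 e3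
    have t : g.1 0 0 + g.1 1 1 = 0 := by_contra fun t => by
      have b : g.1 0 1 = 0 := mul_left_cancel₀ (pow_ne_zero 3 t) (by
        linear_combination e2 + (g.1 0 1 * (g.1 0 0 + g.1 1 1) * (g.1 0 0 * g.1 1 1 - g.1 0 1 * g.1 1 0)) * h2)
      rw [b] at d e1
      have a : g.1 0 0 = 1 := sub_eq_zero.1 (pow_eq_zero_iff four_ne_zero |>.1 (by
        linear_combination e1 + (-2 * g.1 0 0 ^ 3 + 3 * g.1 0 0 ^ 2 - 2 * g.1 0 0 + 1) * h2))
      rw [a] at d t
      exact t (by linear_combination d + h2)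
    ext i j
    fin_cases i <;> fin_cases j <;> simp [sq, Matrix.mul_apply, Fin.sum_univ_two]
    · linear_combination g.1 0 0 * t - d - h2
    · linear_combination g.1 0 1 * t
    · linear_combination g.1 1 0 * t
    · linear_combination g.1 1 1 * t - d - h2
  induction n with
  | zero => rw [show g = 1 by simpa using h, one_pow]
  | succ n ih =>
    cases n with
    | zero => simpa using h
    | succ n => exact ih (by
      rw [pow_succ, pow_mul]; exact key _ (by rw [← pow_mul, ← h]; congr 1; ring))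

namespace DD
variable (h : DD H A)
include h

theorem inv (hs : s ∈ H) (n : s ∉ A) (hx : x ∈ A) : s * x * s⁻¹ = x⁻¹ := by
  have := h.out _ (mul_mem hs (h.le hx)) fun e => n ((A.mul_mem_cancel_right hx).1 e)
  rw [inv_eq_of_mul_eq_one_right (h.out s hs n), eq_inv_iff_mul_eq_one, ← this]; group

theorem sol : Sol H := by
  obtain ⟨s, hs, n⟩ := h.ne
  refine (h.ab.sol.sup' (cyc_zpowers s).abel.sol (zp_le_norm (Inv.norm (fun x => h.inv hs n) le_rfl))).mono
    fun x hx => by_cases (fun e : x ∈ A => mem_sup_left e) fun e => ?_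
  exact (mul_mem_cancel_right (mem_sup_right (mem_zpowers s))).1 (mem_sup_left (h.idx x hx s hs e n))

theorem gen (hx : x ∈ H) : ∃ a b, a * a = 1 ∧ b * b = 1 ∧ x = a * b := by
  obtain ⟨s, hs, n⟩ := h.ne
  by_cases e : x ∈ A
  · exact ⟨x * s, s, h.out _ (mul_mem hx hs) fun q => n ((A.mul_mem_cancel_left e).1 q), h.out s hs n, by
      rw [mul_assoc, h.out s hs n, mul_one]⟩
  exact ⟨x, 1, h.out x hx e, mul_one _, (mul_one _).symm⟩

theorem dih (h0 : 𝐎 {2}ᶜ (⊤ : Subgroup G) = ⊥) (ns : ¬ Sol (⊤ : Subgroup G)) (d : DG (⊤ : Subgroup G)) : Out G := by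
  obtain ⟨j, hj, i⟩ := h.ev
  refine .of_LP (DGr.dih h0 d ns i (fun x hx => h.gen (h.cen j hj i ▸ hx)) fun x hx y hy p q => ?_)
  rw [h.cen j hj i] at hx hy
  exact h.ab.mul_comm (by_contra fun e => p (h.out x hx e)) (by_contra fun e => q (h.out y hy e))

/-- `A` has only one involution -/
theorem one (h0 : 𝐎 {2}ᶜ (⊤ : Subgroup G) = ⊥) (ns : ¬ Sol (⊤ : Subgroup G)) (hj : j ∈ A) (i : Iv j)
    (u : ∀ k ∈ A, Iv k → k = j) : Out G := by
  have c := h.cen j hj i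
  obtain ⟨S, hS, m⟩ := exists_syl_le (zpowers_le.2 (h.le hj)) i.piGrp
  obtain ⟨T, hT, l⟩ := exists_syl_le (M := ⊤) le_top hS.pi
  have e : S = T ⊓ H := hS.eq_of_le (le_inf l hS.le) inf_le_right (hT.pi.le inf_le_left)
  by_cases q : T ≤ H
  · rw [inf_eq_left.2 q] at e
    subst e
    obtain ⟨σ, e⟩ : ∃ σ, zpowers σ = S ⊓ A := Cyc.exists_gen (by_contra fun n => by
      obtain ⟨s, hs, t, ht, p1, p2, p3⟩ := Fgs3.exists_two_invol (h.ab.mono inf_le_right) (hS.pi.le inf_le_left) n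
      exact p3 ((u s hs.2 p1).trans (u t ht.2 p2).symm))
    have hσ := e.le (mem_zpowers σ)
    have k : ∀ x ∈ S, x ∉ zpowers σ → x ∉ A := fun x hx n a => n (e.ge ⟨hx, a⟩)
    exact h.dih h0 ns (dg_of_syl hT ⟨σ, hσ.1, fun x hx n => ⟨h.out x (q hx) (k x hx n), h.inv (q hx) (k x hx n) hσ.2⟩,
      fun x hx y hy a b => e.ge ⟨mul_mem hx hy, h.idx x (q hx) y (q hy) (k x hx a) (k y hy b)⟩⟩)
  have jT := l (m (mem_zpowers j))
  -- an involution centralizing `S`, outside `A`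
  have key : ∀ {X z}, j ∈ X → X ≤ H → PiGrp {2} X → z ∈ X → Iv z → z ≠ j → X ≤ 𝐂₁ z → X = V4 j z := by
    intro X z a b p hz iz zj cz
    have zA : z ∉ A := fun a => zj (u z a iz)
    have k : ∀ x ∈ X, x ∈ A → x ∈ zpowers j := fun x hx xA => by_cases (fun e : x = 1 => e ▸ one_mem _) fun e => by
      have := h.inv (b hz) zA xA
      rw [← mem_cent1.1 (cz hx), mul_inv_cancel_right] at this
      rw [u x xA (.mk' e (eq_inv_iff_mul_eq_one.1 this))]; exact mem_zpowers j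
    refine le_antisymm (fun x hx => by_cases (fun e : x ∈ A => mem_sup_left (k x hx e)) fun e => ?_) (V4_le.2 ⟨a, hz⟩)
    exact (mul_mem_cancel_right (right_mem_V4 j z)).1 (mem_sup_left (k _ (mul_mem hx hz) (h.idx x (b hx) z (b hz) e zA)))
  obtain ⟨z, hz, iz⟩ := exists_iv_of_two (hT.pi.le inf_le_left) (hT.pi.nil.center_ne_bot (ne_bot_of_mem jT i.ne_one))
  have zj : z ≠ j := fun e => q (c ▸ e ▸ le_cent1_iff.2 hz.2)
  have zH : z ∈ H := c ▸ mem_cent1.2 (mem_cent.1 hz.2 j jT).symm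
  have f : FP j z := ⟨i, iz, mem_cent.1 hz.2 j jT, zj.symm⟩
  have c4 : ♯S = 4 := by
    rw [key (m (mem_zpowers j)) hS.le hS.pi (e ▸ ⟨hz.1, zH⟩) iz zj (l.trans (le_cent1_iff.2 hz.2)), f.card]
  rcases two_subgroup_cases_of_card_centralizer hT.pi.isPGroup jT i (by rw [← c4, e, ← c]) with
    ⟨n, a, b, -, d⟩ | ⟨n, a, b, d⟩ | d
  · exact h.dih h0 ns (dg_of_syl hT (dc_of_dh d))
  swap
  · exact (q ((eq_of_card_eq l (by rw [c4, d])).ge.trans hS.le)).elim
  clear hz iz zj zH f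
  clear z
  set z := a (zh n)
  have iz : Iv z := d.orderOf_zh
  have Tz : T ≤ 𝐂₁ z := fun x hx => mem_cent1.2 (d.commute_zh hx)
  have zj : z ≠ j := fun e => q (c ▸ e ▸ Tz)
  have zc : z ∈ 𝐂 ⊤ := zstar_cent h0 hT (d.a_mem _) fun g _ hg => by
    refine (d.invol_isConj hg (iz.conj g)).resolve_right fun ⟨s, _, p⟩ => ?_
    obtain ⟨t, -, p'⟩ := (d.invol_isConj jT i).resolve_left zj.symm
    have : cj (t⁻¹ * s * g) T ≤ H := by
      rw [← c, show j = t⁻¹ * s * g * z * (t⁻¹ * s * g)⁻¹ by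
        rw [← p] at p'; rw [← inv_mul_cancel_left t j, ← inv_mul_cancel_right (t * j) t, p']; group, ← cj_cent1]
      exact cj_mono _ Tz
    have := hS.dvd_card (card_dvd_of_le this) (hT.pi.cj _)
    rw [card_cj, d.card, c4] at this
    have := (Nat.pow_dvd_pow_iff_le_right' (b := 0) (l := 2)).1 this
    have := d.three_le
    omega
  have zt : ⊤ ≤ 𝐂₁ z := le_cent1_iff.2 zc
  have zH : z ∈ H := c ▸ mem_cent1.2 (mem_cent.1 zc j trivial).symm
  have zA : z ∉ A := fun a => zj (u z a iz)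
  have f : FP j z := ⟨i, iz, mem_cent.1 zc j trivial, zj.symm⟩
  have eH : H = V4 j z := key (h.le hj) le_rfl (piGrp_of_forall_elt fun x hx => piElt_of_pow_eq_one Nat.prime_two <| by
    by_cases xA : x ∈ A
    · have := h.inv zH zA xA
      rw [← mem_cent1.1 (zt (mem_top x)), mul_inv_cancel_right] at this
      rw [sq, eq_inv_iff_mul_eq_one.1 this]
    rw [sq, h.out x hx xA]) zH iz zj (le_top.trans zt)
  have cz : ⊤ ≤ 𝐂 (zpowers z) := by rwa [cent_zpowers]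
  haveI : (zpowers z).Normal := normalIn_top.1 ⟨le_top, norm_of_cent cz⟩
  let π := QuotientGroup.mk' (zpowers z)
  have hπ := QuotientGroup.mk'_surjective (zpowers z)
  have p1 : ∀ x, π x = 1 ↔ x = 1 ∨ x = z := fun x => (QuotientGroup.eq_one_iff x).trans iz.mem_zpowers
  have sq1 : ∀ x ∈ 𝐂₁ (π j), x * x = 1 := fun x hx => by
    obtain ⟨x, rfl⟩ := hπ x
    have e : x * j * x⁻¹ * j⁻¹ = 1 ∨ x * j * x⁻¹ * j⁻¹ = z := (p1 _).1 (by
      rw [map_mul, map_mul, map_mul, map_inv, map_inv, show π x * π j = _ from mem_cent1.1 hx]; simp [π])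
    rw [← map_mul, p1]
    rcases e with e | e
    · exact .inl (f.sq (eH ▸ c ▸ mem_cent1.2 (by rwa [mul_inv_eq_one, mul_inv_eq_iff_eq_mul] at e)))
    have e1 : x * j * x⁻¹ = z * j := mul_inv_eq_iff_eq_mul.1 e
    have xz := mem_cent1.1 (zt (mem_top x))
    have : x * x ∈ V4 j z := eH ▸ c ▸ mem_cent1.2 (by
      have : x * x * j * (x * x)⁻¹ = j := by
        calc _ = x * (x * j * x⁻¹) * x⁻¹ := by group
          _ = x * z * x⁻¹ * (x * j * x⁻¹) := by rw [conj_mul, e1]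
          _ = j := by rw [xz, mul_inv_cancel_right, e1, ← mul_assoc, iz.sq, one_mul]
      exact mul_inv_eq_iff_eq_mul.1 this)
    have xj : x * j ≠ j * x := fun q => iz.ne_one (by rw [← e, q]; group)
    rcases f.mem.1 this with q | q | q | q
    exacts [.inl q, (xj (by rw [← q]; group)).elim, .inr q, (xj (by
      rw [eq_mul_inv_of_mul_eq q.symm, iz.inv_eq, mul_assoc _ z, ← xz]; group)).elim]
  refine ⟨zpowers z, inferInstance, iz.card.dvd, DGr.dih (O_quot_cent iz.piGrp cz h0) ?_ (fun s => ns ?_) (j := π j)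
    (.mk' ?_ (by rw [← map_mul, i.sq, map_one])) (fun x hx => ⟨x, 1, sq1 x hx, mul_one _, (mul_one _).symm⟩)
    fun x hx _ _ p => (p (sq1 x hx)).elim⟩
  · refine dg_of_syl (map_top_of_surjective π hπ ▸ hT.map π) ⟨π (a 1), mem_map_of_mem π (d.a_mem 1), ?_, ?_⟩
    · rintro _ ⟨x, hx, rfl⟩ n
      obtain ⟨l, rfl⟩ := ((d.mem x).1 hx).resolve_left fun ⟨l, e⟩ => n (by
        rw [← MonoidHom.map_zpowers, e]; exact mem_map_of_mem π (d.a_mem_zpowers_one l))
      refine ⟨?_, ?_⟩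
      · rw [← map_mul, p1, d.bb]
        exact (d.sq_cases l).imp (fun e => d.a_eq_one.2 e) fun e => congrArg a e
      · rw [eq_inv_iff_mul_eq_one, ← map_inv, ← map_mul, ← map_mul, ← map_mul, p1]
        refine .inr ?_
        rw [d.ba, d.b_inv, d.bb, d.aa]
        congr 1
        linear_combination (-l) * d.kk
    · rintro _ ⟨x, hx, rfl⟩ _ ⟨y, hy, rfl⟩ p q
      have k : ∀ x ∈ T, π x ∉ zpowers (π (a 1)) → ∃ l, x = b l := fun x hx n =>
        ((d.mem x).1 hx).resolve_left fun ⟨l, e⟩ => n (by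
          rw [← MonoidHom.map_zpowers, e]; exact mem_map_of_mem π (d.a_mem_zpowers_one l))
      obtain ⟨l, rfl⟩ := k x hx p
      obtain ⟨l', rfl⟩ := k y hy q
      rw [← map_mul, d.bb, ← MonoidHom.map_zpowers]; exact mem_map_of_mem π (d.a_mem_zpowers_one _)
  · haveI : Group.IsSolvable (zpowers z) := (cyc_zpowers z).abel.sol
    haveI := Fgs3.sol_top_iff.1 s
    exact Fgs3.sol_top_iff.2 (Group.isSolvable_of_ker_le_range (zpowers z).subtype π (by simp [π]))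
  · rw [Ne, p1, not_or]; exact ⟨i.ne_one, zj.symm⟩

/-- conjugates of involutions of `A` in `H` are central -/
theorem cen' (f : FP j k) (hj : j ∈ A) (hk : k ∈ A) (hw : w ∈ A) (i : Iv w) (m : g * w * g⁻¹ ∈ H) :
    cj g H = H := by
  have c : ∀ x ∈ A, Iv x → x ∈ cj g H := fun x hx ix => by
    rw [← h.cen w hw i, cj_cent1, mem_cent1_comm, h.cen x hx ix]; exact m
  obtain ⟨x, hx, ix, e⟩ : ∃ x ∈ A, Iv x ∧ g⁻¹ * x * g ∈ A := by
    by_contra! q
    refine q _ (mul_mem hj hk) f.iv ?_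
    rw [show g⁻¹ * (j * k) * g = g⁻¹ * j * g * (g⁻¹ * k * g) by group]
    exact h.idx _ (mem_cj.1 (c j hj f.l)) _ (mem_cj.1 (c k hk f.r)) (q j hj f.l) (q k hk f.r)
  rw [← h.cen _ e (ix.conj' g), cj_cent1, h.cen _ e (ix.conj' g), ← h.cen x hx ix]
  congr 2; group

theorem syl (f : FP j k) (hj : j ∈ A) (hk : k ∈ A) (hT : Syl 2 T ⊤) (l : V4 j k ≤ T) : T ≤ H := by
  by_contra q
  obtain ⟨y, hy, n⟩ := SetLike.exists_of_lt (hT.pi.nil.lt_inf_norm (inf_lt_left.2 q))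
  obtain ⟨g, hg, gH, g2⟩ := exists_sq_mem (H := H) (hT.pi.elt hy.1) fun e => n ⟨hy.1, e⟩
  have gN := zpowers_le.2 hy.2 hg
  have lA : V4 j k ≤ A := V4_le.2 ⟨hj, hk⟩
  have m : ∀ x ∈ V4 j k, g * x * g⁻¹ ∈ H := fun x hx => (conj_mem_of_norm gN ⟨l hx, h.le (lA hx)⟩).2
  have c : ∀ x ∈ V4 j k, ∀ y ∈ H, y * x = x * y := fun x hx y hy => by_cases (fun e : x = 1 => by simp [e]) fun e =>
    mem_cent1.1 (h.cen x (lA hx) (f.iv_of_mem hx e) ▸ hy)
  have key : ∀ x ∈ V4 j k, x ≠ 1 → x * (g * x * g⁻¹) ∉ A := fun x hx x1 e => by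
    have ix := f.iv_of_mem hx x1
    have p := c x hx _ (m x hx)
    have n : x ≠ g * x * g⁻¹ := fun e => gH (h.cen x (lA hx) ix ▸ mem_cent1.2 (mul_inv_eq_iff_eq_mul.1 e.symm))
    refine gH (h.cen _ e (ix.mul (ix.conj g) p.symm n) ▸ mem_cent1.2 ?_)
    calc _ = g * x * g⁻¹ * (g * g * x * (g * g)⁻¹) * g := by group
      _ = _ := by rw [c x hx _ g2, mul_inv_cancel_right, p]
  refine key _ (mul_mem (left_mem_V4 j k) (right_mem_V4 j k)) f.iv.ne_one ?_
  have := h.idx _ (mul_mem (h.le hj) (m j (left_mem_V4 j k))) _ (mul_mem (h.le hk) (m k (right_mem_V4 j k)))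
    (key j (left_mem_V4 j k) f.l.ne_one) (key k (right_mem_V4 j k) f.r.ne_one)
  rwa [mul_assoc, ← mul_assoc _ k, c k (right_mem_V4 j k) _ (m j (left_mem_V4 j k)), mul_assoc k, conj_mul,
    ← mul_assoc] at this

theorem two (h0 : 𝐎 {2}ᶜ (⊤ : Subgroup G) = ⊥) (ns : ¬ Sol (⊤ : Subgroup G)) (f : FP j k) (hj : j ∈ A) (hk : k ∈ A) :
    Out G := by
  haveI := Fact.mk Nat.prime_two
  obtain ⟨S, hS, l⟩ := exists_syl_le (M := ⊤) le_top f.pi
  have SH := h.syl f hj hk hS l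
  set R := pResidual 2 G
  have nR : R ⊴ ⊤ := normalIn_top.2 inferInstance
  have sup : S ⊔ R = ⊤ := Transfer.sup_pResidual_eq_top (by simpa using hS.not_dvd Nat.prime_two)
  have nsR : ¬ Sol R := fun s => ns (sup ▸ hS.pi.nil.sol.sup s le_normalizer_of_normal)
  obtain ⟨s, hs, sA⟩ : ∃ s ∈ S, s ∉ A := by
    obtain ⟨s, hs, n⟩ := h.ne
    obtain ⟨g, hg, e⟩ := (hS.of_le SH le_top).syl_cj_le (zpowers_le.2 hs)
      (Iv.mk' (fun e : s = 1 => n (e ▸ one_mem _)) (h.out s hs n)).piGrp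
    refine ⟨_, e (conj_mem_cj.2 (mem_zpowers s)), fun a => n ?_⟩
    by_cases gA : g ∈ A
    · exact (mul_mem_cancel_left gA).1 ((mul_mem_cancel_right (inv_mem gA)).1 a)
    have := h.inv hg gA a
    rw [show g * (g * s * g⁻¹) * g⁻¹ = g * g * s * (g * g)⁻¹ by group, h.out g hg gA] at this
    rw [one_mul, inv_one, mul_one] at this
    rw [this]; exact inv_mem a
  have tr : ∀ t ∈ R, Iv t → ∃ g, g * t * g⁻¹ ∈ A := fun t ht i => by
    obtain ⟨g, -, e⟩ := hS.syl_cj_le le_top i.piGrp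
    by_contra! q
    obtain ⟨K, n, i2, k⟩ := Transfer.thompson_transfer (M := A) (by simpa using hS.not_dvd Nat.prime_two)
      (relIndex_eq_two_iff_exists_notMem_and.2 ⟨s, hs, sA, fun b hb => by_cases (fun e : b ∈ A => .inr e)
        fun e => .inl (h.idx b (SH hb) s (SH hs) e sA)⟩) (e (conj_mem_cj.2 (mem_zpowers t))) (i.conj g)
      fun a => by simpa [mul_assoc] using q (a * g)
    exact k (Transfer.pResidual_le_of_index (k := 1) (by simpa using i2) (nR.conj_mem trivial ht))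
  have ct : ∀ t ∈ H ⊓ R, Iv t → 𝐂₁ t = H := fun t ht i => by
    obtain ⟨g, e⟩ := tr t ht.2 i
    have := h.cen' (g := g⁻¹) f hj hk e (i.conj g) (by simpa [mul_assoc] using ht.1)
    rw [← this, ← h.cen _ e (i.conj g), cj_cent1]
    congr 2; group
  have abR : Abel (H ⊓ R) := abel_of_forall fun x hx y hy => by
    by_cases xA : x ∈ A
    · by_cases yA : y ∈ A
      · exact h.ab.mul_comm xA yA
      exact mem_cent1.1 (ct y hy (.mk' (fun e => yA (e ▸ one_mem _)) (h.out y hy.1 yA)) ▸ hx.1)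
    exact (mem_cent1.1 (ct x hx (.mk' (fun e => xA (e ▸ one_mem _)) (h.out x hx.1 xA)) ▸ hy.1)).symm
  have s0 := hS.inf_normal nR
  have s1 : Syl 2 ((S ⊓ R).subgroupOf R) ⊤ := by
    rwa [Syl, ← hall_map_iff R.subtype_injective, map_top_subtype, map_subgroupOf inf_le_right]
  obtain ⟨F, _, _, h2, h4, π, hπ, o, -⟩ := Fgs3.AI.main ⟨fun t i => by
      obtain ⟨g, e⟩ := tr t t.2 ((orderOf_coe t).trans i)
      refine abel_of_forall fun x hx y hy => Subtype.ext ?_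
      have k : ∀ x ∈ 𝐂₁ t, g * x * g⁻¹ ∈ H ⊓ R := fun x hx => ⟨by
        rw [← h.cen _ e (Iv.conj ((orderOf_coe t).trans i) g), ← cj_cent1]
        exact conj_mem_cj.2 (mem_cent1.2 (congrArg Subtype.val (mem_cent1.1 hx))), nR.conj_mem trivial x.2⟩
      have := abR.mul_comm (k x hx) (k y hy)
      rwa [conj_mul, conj_mul, mul_left_inj, mul_right_inj] at this,
    s1, fun c => nsR (Fgs3.sol_of_cyc_syl s0 (by simpa [map_subgroupOf] using c.map R.subtype)),
    fun e => nsR (Fgs3.sol_of_normal_syl s0 (by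
      have := (normalIn_top.2 (normalizer_eq_top_iff.1 e)).map R.subtype
      rw [map_top_subtype, map_subgroupOf inf_le_right] at this
      exact this.norm))⟩
  have oR : ∀ K ≤ R, R ≤ 𝐍 K → Odd (♯K) → K = ⊥ := fun K a b c =>
    eq_bot_mono h0 ((le_O ⟨a, b⟩ (GW.odd_iff_pi.1 c)).trans (O_le_O_of_normal nR _))
  have inj : Function.Injective π := (MonoidHom.ker_eq_bot_iff π).1 (by
    have := (normalIn_top.2 (inferInstance : π.ker.Normal)).map R.subtype
    rw [map_top_subtype] at this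
    rw [← map_eq_bot_iff_of_injective _ R.subtype_injective]
    exact oR _ this.le this.norm (by rwa [card_map R.subtype_injective]))
  let e := MulEquiv.ofBijective π ⟨inj, hπ⟩
  have el : ∀ x ∈ S ⊓ R, x * x = 1 := fun x hx => by
    obtain ⟨n, hn⟩ := PiNat.exists_pow (hS.pi.elt hx.1) (orderOf_pos x).ne'
    let e' := e.trans (slEquivPSL h2).symm
    have := sl_sq h2 (e' ⟨x, hx.2⟩) n (by
      rw [← map_pow, map_eq_one_iff _ e'.injective, ← hn]; exact Subtype.ext (pow_orderOf_eq_one x))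
    rw [← map_pow, map_eq_one_iff _ e'.injective, sq] at this
    exact congrArg Subtype.val this
  have SC : S ≤ 𝐂 (S ⊓ R) := fun x hx => mem_cent.2 fun y hy => by_cases (fun e : y = 1 => by simp [e]) fun e =>
    (mem_cent1.1 (ct y ⟨SH hy.1, hy.2⟩ (.mk' e (el y hy)) ▸ SH hx)).symm
  have sup' : R ⊔ 𝐂 R = ⊤ := top_unique (sup ▸ sup_le (fun x hx => by
    obtain ⟨n, hn⟩ := PiNat.exists_pow (hS.pi.elt hx) (orderOf_pos x).ne'
    exact Char.mem_sup_centralizer_of_comm (s0.isSylowIn Nat.prime_two) oR (inf_le_left.trans SC) hn (SC hx))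
    le_sup_left)
  haveI := isSimpleGroup_PSL2 h4
  haveI := e.isSimpleGroup
  have i0 : R ⊓ 𝐂 R = ⊥ := by
    haveI := (normalIn_inf_cent (le_norm_self R)).normal
    rcases this.eq_bot_or_eq_top with q | q
    · rw [← map_subgroupOf (inf_le_left : R ⊓ 𝐂 R ≤ R), q, Subgroup.map_bot]
    · exact (nsR (Abel.sol ((subgroupOf_eq_top.1 q).trans inf_le_right))).elim
  obtain ⟨x, hx, ix⟩ := exists_iv (K := S ⊓ R) fun o => nsR (sol_of_odd (GW.odd_iff_pi.2
    (Hall.pi'_of_eq_bot (s0.pi.eq_bot (GW.odd_iff_pi.1 o) ▸ s0))))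
  have CH : 𝐂 R ≤ H := ct x ⟨SH hx.1, hx.2⟩ ix ▸ cent_le_cent1 hx.2
  have e' : R ≃* G ⧸ 𝐂 R := MulEquiv.ofBijective ((QuotientGroup.mk' _).comp R.subtype) ⟨by
    rw [← MonoidHom.ker_eq_bot_iff, ← MonoidHom.comap_ker, QuotientGroup.ker_mk']
    exact subgroupOf_eq_bot.2 (disjoint_iff.2 (inf_comm R _ ▸ i0)), by
    rw [← MonoidHom.range_eq_top, MonoidHom.range_comp, range_subtype,
      ← (comap_injective (QuotientGroup.mk'_surjective _)).eq_iff, comap_map_eq, QuotientGroup.ker_mk', sup', comap_top]⟩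
  have pC : PiGrp {2} (𝐂 R) := by
    obtain ⟨n, hn⟩ := Transfer.index_pResidual (p := 2) (G := G)
    refine piGrp_of_card (k := n) Nat.prime_two (mul_left_cancel₀ (Nat.card_pos (α := R)).ne' ?_)
    rw [← hn, R.card_mul_index, Nat.card_congr e'.toEquiv, mul_comm]
    exact (𝐂 R).card_mul_index
  have CA : ∀ y ∈ 𝐂 R, y ≠ 1 → y ∉ A := fun y hy y1 a => by
    obtain ⟨w, hw, iw⟩ := exists_iv_of_two (pC.le (inf_le_left (b := A))) (ne_bot_of_mem ⟨hy, a⟩ y1)
    exact nsR (h.sol.mono (h.cen w hw.2 iw ▸ le_cent1_iff.2 hw.1))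
  refine ⟨𝐂 R, inferInstance, ?_, F, _, _, by rw [← Nat.card_eq_fintype_card]; omega, .inl ⟨e'.symm.trans e⟩⟩
  by_cases b : 𝐂 R = ⊥
  · simp [b]
  obtain ⟨y, hy, y1⟩ := exists_mem_ne_one b
  have iy := Iv.mk' y1 (h.out y (CH hy) (CA y hy y1))
  refine (card_dvd_of_le fun w hw => iy.mem_zpowers.2 (by_contra fun q => ?_)).trans iy.card.dvd
  rw [not_or] at q
  exact CA _ (mul_mem hw hy) (fun e => q.2 (by rw [eq_inv_of_mul_eq_one_left e, iy.inv_eq]))
    (h.idx w (CH hw) y (CH hy) (CA w hw q.1) (CA y hy y1))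

theorem core (h0 : 𝐎 {2}ᶜ (⊤ : Subgroup G) = ⊥) (ns : ¬ Sol (⊤ : Subgroup G)) : Out G := by
  obtain ⟨j, hj, i⟩ := h.ev
  by_cases u : ∀ k ∈ A, Iv k → k = j
  · exact h.one h0 ns hj i u
  push Not at u
  obtain ⟨k, hk, ik, n⟩ := u
  exact h.two h0 ns ⟨i, ik, h.ab.mul_comm hj hk, n.symm⟩ hj hk

theorem map {G' : Type*} [Group G'] {f : G →* G'} (hf : Function.Surjective f) (o : Odd (♯f.ker)) :
    DD (H.map f) (A.map f) := by
  have k : ∀ x ∈ H, f x ∉ A.map f → x ∉ A := fun x _ n a => n (mem_map_of_mem f a)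
  refine ⟨map_mono h.le, h.ab.map f, ?_, ?_, ?_, ?_, ?_⟩
  · rintro _ ⟨x, hx, rfl⟩ n
    rw [← map_mul, h.out x hx (k x hx n), map_one]
  · rintro _ ⟨x, hx, rfl⟩ _ ⟨y, hy, rfl⟩ a b
    exact map_mul f x y ▸ mem_map_of_mem f (h.idx x hx y hy (k x hx a) (k y hy b))
  · obtain ⟨s, hs, n⟩ := h.ne
    refine ⟨f s, mem_map_of_mem f hs, fun ⟨a, ha, e⟩ => ?_⟩
    have m : a⁻¹ * s ∉ A := fun q => n ((mul_mem_cancel_left (inv_mem ha)).1 q)
    exact not_mem_of_odd o (.mk' (fun e : a⁻¹ * s = 1 => m (e ▸ one_mem _)) (h.out _ (mul_mem (inv_mem (h.le ha)) hs) m))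
      (by simp [e])
  · obtain ⟨j, hj, i⟩ := h.ev
    exact ⟨f j, mem_map_of_mem f hj, .mk' (not_mem_of_odd o i) (by rw [← map_mul, i.sq, map_one])⟩
  · rintro _ ⟨a, ha, rfl⟩ i
    obtain ⟨u, v, hu, hv, pu, pv, rfl⟩ := exists_piPart {2} a
    have v1 : f v = 1 := (i.piElt.of_mem_zpowers (MonoidHom.map_zpowers f _ ▸ mem_map_of_mem f hv)).eq_one (pv.map f)
    have uA := zpowers_le.2 ha hu
    have iu : Iv u := .mk' (fun e => i.ne_one (by simp [e, v1])) ((pu.mul pu rfl).eq_one ((GW.odd_iff_pi.1 o).elt (by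
      simpa [v1] using i.sq)))
    rw [map_mul, v1, mul_one, ← h.cen u uA iu]
    refine le_antisymm (Fgs3.cent1_le_map hf o iu) ?_
    rintro _ ⟨x, hx, rfl⟩
    exact mem_cent1.2 (by rw [← map_mul, mem_cent1.1 hx, map_mul])

theorem main (ns : ¬ Sol (⊤ : Subgroup G)) : ∃ (N : Subgroup G) (_ : N.Normal),
    (Odd (♯N) ∨ ∃ m : ℕ, Odd m ∧ ♯N = 2 * m) ∧ LP (G ⧸ N) := by
  have hπ := QuotientGroup.mk'_surjective (oddCore G)
  have o : Odd (♯(oddCore G)) := Char.odd_card_oddCore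
  obtain ⟨N, _, d, F, _, _, h3, e⟩ := (h.map hπ (by rwa [QuotientGroup.ker_mk'])).core
    ((pPrimeCore_eq Nat.prime_two).symm.trans Solv.pPrimeCore_quotient_pPrimeCore) fun s => ns (by
      haveI : Group.IsSolvable (oddCore G) := GW.sol_of_odd o
      haveI := Fgs3.sol_top_iff.1 s
      exact Fgs3.sol_top_iff.2 (Group.isSolvable_of_ker_le_range (oddCore G).subtype (QuotientGroup.mk' (oddCore G)) (by simp)))
  let f := (QuotientGroup.mk' N).comp (QuotientGroup.mk' (oddCore G))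
  have e' := QuotientGroup.quotientKerEquivOfSurjective f ((QuotientGroup.mk'_surjective N).comp hπ)
  refine ⟨f.ker, inferInstance, ?_, F, _, _, h3, e.imp (fun ⟨e⟩ => ⟨e'.trans e⟩) fun ⟨e⟩ => ⟨e'.trans e⟩⟩
  rw [← MonoidHom.comap_ker, Solv.card_comap_of_surjective hπ, QuotientGroup.ker_mk', QuotientGroup.ker_mk']
  rcases (Nat.dvd_prime Nat.prime_two).1 d with q | q <;> rw [q]
  exacts [.inl (by rwa [one_mul]), .inr ⟨_, o, rfl⟩]

end DD

theorem exists_dd (hAH : A < H) (hD : ∀ x ∈ H, x ∉ A → x ^ 2 = 1) (h4 : 4 ∣ ♯H)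
    (hC : ∀ j ∈ H, orderOf j = 2 → (∀ h ∈ H, h * j = j * h) → 𝐂₁ j = H) : ∃ B, DD H B := by
  have out : ∀ x ∈ H, x ∉ A → x * x = 1 := fun x hx n => sq x ▸ hD x hx n
  have c4 := Nat.le_of_dvd Nat.card_pos h4
  by_cases el : ∀ x ∈ H, x * x = 1
  · have ab : Abel H := abel_of_forall fun x hx y hy => by
      rw [← inv_eq_of_mul_eq_one_right (el _ (mul_mem hx hy)), mul_inv_rev, inv_eq_of_mul_eq_one_right (el x hx),
        inv_eq_of_mul_eq_one_right (el y hy)]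
    obtain ⟨B, b⟩ := exists_hyp (B := H) (piGrp_of_forall_elt fun x hx => piElt_of_pow_eq_one Nat.prime_two
      ((sq x).trans (el x hx))) fun e => by rw [e, card_bot] at c4; omega
    obtain ⟨j, hj, jB, j1⟩ := b.exists_mem le_rfl (by omega)
    exact ⟨B, b.le, ab.mono b.le, fun x hx _ => el x hx, fun x hx y hy => b.mul_mem hx hy, b.exists_not_mem,
      ⟨j, jB, .mk' j1 (el j hj)⟩, fun j hj i => hC j (b.le hj) i fun x hx => ab.mul_comm hx (b.le hj)⟩
  have inv : ∀ s ∈ H, s ∉ A → ∀ x ∈ A, s * x * s⁻¹ = x⁻¹ := fun s hs n x hx => by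
    have := out _ (mul_mem hs (hAH.le hx)) fun e => n ((A.mul_mem_cancel_right hx).1 e)
    rw [inv_eq_of_mul_eq_one_right (out s hs n), eq_inv_iff_mul_eq_one, ← this]; group
  obtain ⟨s, hs, n⟩ := SetLike.exists_of_lt hAH
  have ab : Abel A := Inv.abel (inv s hs n)
  have idx : ∀ x ∈ H, ∀ y ∈ H, x ∉ A → y ∉ A → x * y ∈ A := fun x hx y hy p q => by_contra fun r => el fun a ha =>
    by_cases (fun e : a ∈ A => by
      have := inv _ (mul_mem hx hy) r a e
      rw [show x * y * a * (x * y)⁻¹ = x * (y * a * y⁻¹) * x⁻¹ by group, inv y hy q a e, inv x hx p _ (inv_mem e),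
        inv_inv] at this
      exact eq_inv_iff_mul_eq_one.1 this) (out a ha)
  refine ⟨A, hAH.le, ab, out, idx, ⟨s, hs, n⟩, exists_iv fun o => ?_, fun j hj i => hC j (hAH.le hj) i fun x hx =>
    by_cases (fun e : x ∈ A => ab.mul_comm e hj) fun e => ?_⟩
  · rw [← card_mul_relIndex hAH.le, relIndex_eq_two_iff_exists_notMem_and.2 ⟨s, hs, n, fun b hb =>
      by_cases (fun e : b ∈ A => .inr e) fun e => .inl (idx b hb s hs e n)⟩] at h4
    obtain ⟨m, hm⟩ := o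
    omega
  · rw [← mul_inv_eq_iff_eq_mul, inv x hx e j hj, Iv.inv_eq i]

end CF.W3.DGr
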