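import Cfsg.Agent.GW.Main
import Cfsg.Agent.GW.Cent4
import Cfsg.Agent.Ab2.PB
import Cfsg.Agent.Char.ZStarCor

/-! Groups with an involution whose centralizer is a generalized dihedral group, I. -/

set_option autoImplicit false

namespace CF.W3.DGr

open Subgroup Cfsg CF.BG CF.Sig CF.GW CF.Ab2 CF.Classical CF.Invol SemidirectProduct Equiv
open scoped MatrixGroups

variable {G : Type*} [Group G] [Finite G] {A H S T : Subgroup G} {j x y : G}

/-- `PSL₂(q)` or `PGL₂(q)`, `q > 3` -/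
def LP (G : Type*) [Group G] : Prop := ∃ (F : Type) (_ : Field F) (_ : Fintype F), 3 < Fintype.card F ∧
  (Nonempty (G ≃* PSL(2, F)) ∨ Nonempty (G ≃* PGL(2, F)))

theorem pgl_of {F : Type} [Field F] [Fintype F] {ι : G →* GamL F} (hι : Function.Injective ι)
    (l : Lg F ≤ Subgroup.map ι ⊤) (r : ∀ g, (ι g).right = 1) :
    Nonempty (G ≃* PSL(2, F)) ∨ Nonempty (G ≃* PGL(2, F)) := by
  have k : ((Subgroup.map ι ⊤).comap inl).map inl = Subgroup.map ι ⊤ := map_comap_eq_self fun _ ⟨g, _, e⟩ =>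
    ⟨_, (eq_inl (e ▸ r g)).symm⟩
  have f : G ≃* (Subgroup.map ι ⊤).comap (inl : PGL(2, F) →* GamL F) := topEquiv.symm.trans
    ((equivMapOfInjective _ _ hι).trans ((MulEquiv.subgroupCongr k.symm).trans
      (equivMapOfInjective _ _ inl_injective).symm))
  exact (eq_psl_or_eq_top fun g hg => l (inl_mem_Lg.2 hg)).imp
    (fun k => ⟨f.trans ((MulEquiv.subgroupCongr k).trans (pslEquiv F).symm)⟩)
    fun k => ⟨f.trans ((MulEquiv.subgroupCongr k).trans topEquiv)⟩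

/-- an even permutation -/
def a7 (i : Fin 3) : alternatingGroup (Fin 7) :=
  ⟨![swap 0 1 * swap 2 3, swap 0 2 * swap 2 1 * swap 1 3 * swap 4 5, swap 4 5 * swap 5 6] i,
    Perm.mem_alternatingGroup.2 (by revert i; decide)⟩

theorem dih (h0 : 𝐎 {2}ᶜ (⊤ : Subgroup G) = ⊥) (h : DG (⊤ : Subgroup G)) (ns : ¬ Sol (⊤ : Subgroup G)) (i : Iv j)
    (gen : ∀ x ∈ 𝐂₁ j, ∃ a b, a * a = 1 ∧ b * b = 1 ∧ x = a * b)
    (cm : ∀ x ∈ 𝐂₁ j, ∀ y ∈ 𝐂₁ j, x * x ≠ 1 → y * y ≠ 1 → x * y = y * x) : LP G := by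
  rcases h.cases h0 with p | ⟨a, z, f, n, c⟩ | ⟨L, n, k, c, -, s, g⟩
  · exact (ns p.nil.sol).elim
  · exact (ns (sol_of_four f n c)).elim
  haveI := normalIn_top.1 n
  have h2 := no_index_two_of_simple (G := L) fun e => k.not_abel (cyc_of_prime (e ▸ Nat.prime_two)).abel
  have oc := (h.mono le_top).oneC h2
  rcases g with ⟨F, _, _, o, h3, ⟨e⟩⟩ | ⟨⟨e⟩⟩
  · have t := two_ne_zero_of_odd o
    obtain ⟨ι, hι, hL⟩ := exists_embed_GamL t (by rwa [top_inf_eq] at c) e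
    have l : Lg F ≤ Subgroup.map ι ⊤ := hL.ge.trans (map_mono le_top)
    refine ⟨F, _, _, h3, pgl_of hι l ?_⟩
    set K := (rightHom.comp ι).ker
    have iv : ∀ a, a * a = 1 → a ∈ K := fun a e => by
      by_cases a1 : a = 1
      · exact a1 ▸ one_mem _
      exact right_eq_one_of_iv t (by simpa using h3) l (h.r2.map hι) (mem_map_of_mem ι trivial)
        ((iv_map_iff hι).2 (.mk' a1 e))
    have cK : 𝐂₁ j ≤ K := fun x hx => by
      obtain ⟨a, b, p, q, rfl⟩ := gen x hx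
      exact mul_mem (iv a p) (iv b q)
    have LK : L ≤ K := fun x hx => (mem_Lg.1 (hL.le (mem_map_of_mem ι hx))).2
    suffices ⊤ ≤ K from fun g => this trivial
    by_cases jL : j ∈ L
    · intro g _
      obtain ⟨l, hl, e⟩ := oc j jL _ (n.conj_mem trivial jL) i (i.conj g)
      have : l⁻¹ * g ∈ 𝐂₁ j := mem_cent1.2 (by
        rw [mul_assoc, mul_inv_eq_iff_eq_mul.1 e.symm]; group)
      exact (K.mul_mem_cancel_left (inv_mem (LK hl))).1 (cK this)
    obtain ⟨T, hT, m⟩ := exists_syl_le (p := 2) (M := ⊤) le_top i.piGrp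
    have jT := m (mem_zpowers j)
    have TK : T ≤ K := by
      obtain ⟨σ, hσ, p, -⟩ := h T le_top hT.pi
      obtain ⟨w, hw, wn⟩ : ∃ w ∈ T, w ∉ zpowers σ := by
        by_contra! q
        exact ns (sol_of_npc (npc_of_cyc hT ((cyc_zpowers σ).mono q)))
      intro x hx
      by_cases xn : x ∈ zpowers σ
      · exact (K.mul_mem_cancel_right (iv w (p w hw wn).1)).1 (iv _ (p _ (mul_mem hx hw)
          fun q => wn (((zpowers σ).mul_mem_cancel_left xn).1 q)).1)
      exact iv x (p x hx xn).1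
    rw [← (hT.of_le TK le_top).syl_frattini_sup (normalIn_top.2 inferInstance)]
    refine sup_le le_rfl fun g hg => ?_
    obtain ⟨u, v, hu, hv, pu, pv, rfl⟩ := exists_piPart {2} g
    have n' := zpowers_le.2 hg.2
    refine mul_mem (TK (hT.mem_of_norm trivial (n' hu) pu)) (cK (by_contra fun q => ?_))
    obtain ⟨a, z, f, rfl⟩ := h.fp_of_odd le_top hT.pi (n' hv) (odd_iff_piElt.2 pv) fun p => q (cent_le_cent1 jT p)
    refine k.not_sol (sol_of_npc (npc_of_cyc (hT.inf_normal n) (by_contra fun p => jL ?_)))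
    obtain ⟨s, hs, t, ht, p1, p2, p3⟩ : ∃ s ∈ V4 a z ⊓ L, ∃ t ∈ V4 a z ⊓ L, Iv s ∧ Iv t ∧ s ≠ t := by
      by_contra! q
      refine p ?_
      by_cases b : V4 a z ⊓ L = ⊥
      · exact b ▸ cyc_bot
      obtain ⟨s, hs, s1⟩ := exists_mem_ne_one b
      refine (cyc_zpowers s).mono fun t ht => by_cases (fun e : t = 1 => e ▸ one_mem _) fun e => ?_
      rw [q t ht s hs (f.iv_of_mem ht.1 e) (f.iv_of_mem hs.1 s1)]; exact mem_zpowers s
    have f' : FP s t := ⟨p1, p2, f.abel.mul_comm hs.1 ht.1, p3⟩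
    rw [← eq_of_card_eq (V4_le.2 ⟨hs.1, ht.1⟩) (by rw [f.card, f'.card])] at jT
    exact V4_le.2 ⟨hs.2, ht.2⟩ jT
  · obtain ⟨rfl, -⟩ := a7_of n c h e h2
    have e' := topEquiv.symm.trans e
    obtain ⟨g, -, q⟩ := oc _ trivial j trivial ((iv_map_iff (f := e'.symm.toMonoidHom) e'.symm.injective).2
      (.mk' (by decide) (by decide) : Iv (a7 0))) i
    have m : ∀ k, a7 k * a7 0 = a7 0 * a7 k → g * e'.symm (a7 k) * g⁻¹ ∈ 𝐂₁ j := fun k p => by
      rw [mem_cent1, ← q, conj_mul, conj_mul]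
      exact congrArg (g * · * g⁻¹) (by simpa using congrArg e'.symm p)
    have s : ∀ k, a7 k * a7 k ≠ 1 → g * e'.symm (a7 k) * g⁻¹ * (g * e'.symm (a7 k) * g⁻¹) ≠ 1 := fun k p => by
      rwa [conj_mul, Ne, conj_eq_one_iff, ← map_mul, map_eq_one_iff _ e'.symm.injective]
    have := cm _ (m 1 (by decide)) _ (m 2 (by decide)) (s 1 (by decide)) (s 2 (by decide))
    rw [conj_mul, conj_mul, mul_left_inj, mul_right_inj, ← map_mul, ← map_mul, e'.symm.injective.eq_iff] at this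
    exact absurd this (by decide)

end CF.W3.DGr
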